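import Cfsg.Agent.H6.Ly.D2.D0

set_option autoImplicit false
set_option maxRecDepth 100000
set_option Elab.async false

namespace Cfsg.H6.Ly.D2

def klW0 : List (List ℕ) := [[nat_lit 11], [nat_lit 13], [nat_lit 15]]

theorem kl0 : lvlChk H.img 19530 77 [] (1, klW0, unp 3 (nat_lit 0x8000000050100000102)) = true := by
  decide +kernel

def klW1 : List (List ℕ) := [[nat_lit 11], [nat_lit 13]]

theorem kl1 : lvlChk H.img 19530 77 [1] (2, klW1, unp 2 (nat_lit 0x80100000200)) = true := by
  decide +kernel

def klW2 : List (List ℕ) := [[nat_lit 13]]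

theorem kl2 : lvlChk H.img 19530 77 [2,1] (5, klW2, unp 1 (nat_lit 0x500)) = true := by
  decide +kernel

def klW3 : List (List ℕ) := [[nat_lit 19], [nat_lit 21]]

theorem kl3 : lvlChk H.img 19530 77 [5,2,1] (4, klW3, unp 24 (nat_lit 0x19010000070000018500000725010002180100018901000738010001890000021800000216010002160000000a00000018000000e70100003c000000e30100001c0100076301000763000000c8010000c80000001c000000040100000400)) = true := by
  decide +kernel

def klW4 : List (List ℕ) := [[nat_lit 20, nat_lit 11, nat_lit 11]]

theorem kl4 : lvlChk H.img 19530 77 [4,5,2,1] (7, klW4, unp 3 (nat_lit 0xa000000190000000700)) = true := by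
  decide +kernel

def klW5 : List (List ℕ) := [[nat_lit 23, nat_lit 20], [nat_lit 25, nat_lit 20]]

theorem kl5 : lvlChk H.img 19530 77 [7,4,5,2,1] (22, klW5, unp 24 (nat_lit 0xc60000016a010001820100016a0000016c010000b801000017010000e4000000c2010000c2000000170000018601000212010002150100021500000212000002140100021400000764010007640000070501000705000000160100001600)) = true := by
  decide +kernel

def klW6 : List (List ℕ) := [[nat_lit 27]]

theorem kl6 : lvlChk H.img 19530 77 [22,7,4,5,2,1] (3, klW6, unp 4 (nat_lit 0xb3000000b2000000140000000300)) = true := by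
  decide +kernel

theorem stab : fixS H.φ [0] ≤ gen H.ev [[19], [20], [21], [22], [23], [24], [25], [26], [27], [28], [11], [12], [13], [14], [15], [16]] := by
  have := H.finite
  exact stab_le H.lb1 (by norm_num) (a := 300000) (by rw [H.card]) (H.hφ.gen_le_fixS (by decide +kernel))
    (LBn.cast ((((((((LBn.nil H.φ _ 19530).stepU H.hφ (mem_of_letChk (Ws := [[19], [20], [21], [22], [23], [24], [25], [26], [27], [28], [11], [12], [13], [14], [15], [16]]) (by decide +kernel)) kl0).stepU H.hφ (mem_of_letChk (Ws := [[19], [20], [21], [22], [23], [24], [25], [26], [27], [28], [11], [12], [13], [14], [15], [16]]) (by decide +kernel)) kl1).stepU H.hφ (mem_of_letChk (Ws := [[19], [20], [21], [22], [23], [24], [25], [26], [27], [28], [11], [12], [13], [14], [15], [16]]) (by decide +kernel)) kl2).stepU H.hφ (mem_of_letChk (Ws := [[19], [20], [21], [22], [23], [24], [25], [26], [27], [28], [11], [12], [13], [14], [15], [16]]) (by decide +kernel)) kl3).stepU H.hφ (mem_of_letChk (Ws := [[19], [20], [21], [22], [23], [24], [25], [26], [27], [28], [11], [12], [13], [14], [15],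 [16]]) (by decide +kernel)) kl4).stepU H.hφ (mem_of_letChk (Ws := [[19], [20], [21], [22], [23], [24], [25], [26], [27], [28], [11], [12], [13], [14], [15], [16]]) (by decide +kernel)) kl5).stepU H.hφ (mem_of_letChk (Ws := [[19], [20], [21], [22], [23], [24], [25], [26], [27], [28], [11], [12], [13], [14], [15], [16]]) (by decide +kernel)) kl6) (by decide +kernel)).1.le_card

end Cfsg.H6.Ly.D2
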